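import Cfsg.Agent.H18.OmegaCore
import Cfsg.Agent.Classification.TypeZ.Critical
import Cfsg.Agent.Lib.CoprimeAbelian
import Cfsg.Agent.Lib.CoprimeCommutator

/-!
# Fixed points of an element of order `p` on a `p`-group with a fixed-point-freely normalised operator group

`eq_bot`: `R` a `p`-group (`p` odd), `Q` a `p'`-group acting faithfully on `R`, `b` of order `p` normalising
both, `C_Q(b) = 1`; the elements of `C_R(b)` of order dividing `p` lie in a group of order at most `p` and are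
centralized by `Q`.  Then `Q = 1`.
-/

set_option autoImplicit false

namespace Cfsg.Agent.H18.OmegaAmb

open Cfsg.Agent.OddOrderLocal.FrobAct
open Cfsg.Agent.H18.OmegaCore
open scoped commutatorElement

variable {G : Type*} [Group G]

/-- the conjugation action -/
def cj {A D : Subgroup G} (h : A ≤ Subgroup.normalizer (D : Set G)) : A →* MulAut D :=
  D.normalizerMonoidHom.comp (Subgroup.inclusion h)

theorem cj_apply {A D : Subgroup G} (h : A ≤ Subgroup.normalizer (D : Set G)) (a : A) (x : D) :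
    ((cj h a x : D) : G) = a * x * (a : G)⁻¹ := rfl

/-- an element normalising `A` and `Q` normalises `⁅A, Q⁆` -/
theorem mem_normalizer_commutator {A Q : Subgroup G} {b : G} (hA : b ∈ Subgroup.normalizer (A : Set G))
    (hQ : b ∈ Subgroup.normalizer (Q : Set G)) : b ∈ Subgroup.normalizer ((⁅A, Q⁆ : Subgroup G) : Set G) := by
  have key : ∀ c : G, c ∈ Subgroup.normalizer (A : Set G) → c ∈ Subgroup.normalizer (Q : Set G) →
      ∀ x ∈ (⁅A, Q⁆ : Subgroup G), c * x * c⁻¹ ∈ (⁅A, Q⁆ : Subgroup G) := by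
    intro c hcA hcQ
    have hle : (⁅A, Q⁆ : Subgroup G) ≤ (⁅A, Q⁆ : Subgroup G).comap (MulAut.conj c).toMonoidHom := by
      rw [Subgroup.commutator_le]
      intro x hx y hy
      rw [Subgroup.mem_comap]
      show c * ⁅x, y⁆ * c⁻¹ ∈ _
      have : c * ⁅x, y⁆ * c⁻¹ = ⁅c * x * c⁻¹, c * y * c⁻¹⁆ := by
        simp only [commutatorElement_def]; group
      rw [this]
      exact Subgroup.commutator_mem_commutator ((Subgroup.mem_normalizer_iff.mp hcA x).mp hx)
        ((Subgroup.mem_normalizer_iff.mp hcQ y).mp hy)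
    exact fun x hx => hle hx
  rw [Subgroup.mem_normalizer_iff]
  intro x
  refine ⟨key b hA hQ x, fun hx => ?_⟩
  have := key b⁻¹ (inv_mem hA) (inv_mem hQ) _ hx
  have e : b⁻¹ * (b * x * b⁻¹) * b⁻¹⁻¹ = x := by group
  rwa [e] at this

theorem eq_bot [Finite G] {p : ℕ} [hpf : Fact p.Prime] (hp : p ≠ 2)
    (R Q : Subgroup G) (hR : IsPGroup p R) (hQ : ¬ p ∣ Nat.card Q) (b : G) (hb : orderOf b = p)
    (hQR : Q ≤ Subgroup.normalizer (R : Set G)) (hbR : b ∈ Subgroup.normalizer (R : Set G))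
    (hbQ : b ∈ Subgroup.normalizer (Q : Set G))
    (hfix : ∀ x ∈ Q, b * x = x * b → x = 1)
    (hfaith : ∀ x ∈ Q, (∀ r ∈ R, x * r = r * x) → x = 1)
    (Z : Subgroup G) (hZ : Nat.card Z ≤ p)
    (hZR : ∀ x ∈ R, b * x = x * b → x ^ p = 1 → x ∈ Z ∧ ∀ y ∈ Q, y * x = x * y) : Q = ⊥ := by
  by_contra hQ1
  obtain ⟨C, E, hCR, hEC, hnC, hnE, hE, hcc, -, hfaithE⟩ :=
    Cfsg.Agent.Classification.TypeZ.Critical.exists_critical hp hR
  have hER : E ≤ R := hEC.trans hCR
  have hcopp : (Nat.card Q).Coprime p := ((Nat.Prime.coprime_iff_not_dvd hpf.out).mpr hQ).symm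
  have hcop : ∀ A : Subgroup G, A ≤ R → (Nat.card Q).Coprime (Nat.card A) := by
    intro A hA
    obtain ⟨n, hn⟩ := IsPGroup.iff_card.1 (hR.to_le hA)
    rw [hn]
    exact Nat.Coprime.pow_right n hcopp
  have hbp : IsPGroup p (Subgroup.zpowers b) := IsPGroup.of_card (n := 1) (by
    rw [Nat.card_zpowers, hb, pow_one])
  -- abelian invariant subgroups of exponent `p` are centralized
  have hX : ∀ A : Subgroup G, A ≤ R → (∀ x ∈ A, ∀ y ∈ A, x * y = y * x) → (∀ x ∈ A, x ^ p = 1) →
      Q ≤ Subgroup.normalizer (A : Set G) → b ∈ Subgroup.normalizer (A : Set G) → ⁅A, Q⁆ = ⊥ := by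
    intro A hAR hAc hAe hQA hbA
    by_contra hne
    have hTA : ⁅A, Q⁆ ≤ A := Cfsg.Agent.Lib.CoprimeCommutator.commutator_le_left hQA
    have hbT : Subgroup.zpowers b ≤ Subgroup.normalizer ((⁅A, Q⁆ : Subgroup G) : Set G) := by
      rw [Subgroup.zpowers_le]
      exact mem_normalizer_commutator hbA hbQ
    have : Nontrivial (⁅A, Q⁆ : Subgroup G) := (Subgroup.nontrivial_iff_ne_bot _).2 hne
    obtain ⟨z, hz1, hz⟩ := exists_fixed_ne_one hbp (hR.to_le (hTA.trans hAR)) (cj hbT)
    have hzb : b * z = z * b := by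
      have := congrArg Subtype.val (hz ⟨b, Subgroup.mem_zpowers b⟩)
      rw [cj_apply] at this
      exact mul_inv_eq_iff_eq_mul.mp this
    have hzA : (z : G) ∈ A := hTA z.2
    have h1 := (hZR z (hAR hzA) hzb (hAe z hzA)).2
    have h2 := Cfsg.Agent.Lib.CoprimeAbelian.inf_commutator_eq_bot Q A hAc hQA (hcop A hAR)
    have h3 : (z : G) ∈ (A ⊓ Subgroup.centralizer (Q : Set G)) ⊓ ⁅A, Q⁆ := by
      refine Subgroup.mem_inf.2 ⟨Subgroup.mem_inf.2 ⟨hzA, ?_⟩, z.2⟩
      rw [Subgroup.mem_centralizer_iff]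
      exact h1
    rw [h2, Subgroup.mem_bot] at h3
    exact hz1 (Subtype.ext h3)
  -- the group `D = [E, Q]`
  have hQE : Q ≤ Subgroup.normalizer (E : Set G) := hQR.trans hnE
  have hbE : b ∈ Subgroup.normalizer (E : Set G) := hnE hbR
  set D : Subgroup G := ⁅E, Q⁆ with hDdef
  have hDE : D ≤ E := Cfsg.Agent.Lib.CoprimeCommutator.commutator_le_left hQE
  have hDR : D ≤ R := hDE.trans hER
  have hQD : Q ≤ Subgroup.normalizer (D : Set G) :=
    Cfsg.Agent.Lib.CoprimeCommutator.right_le_normalizer_commutator E Q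
  have hbD : Subgroup.zpowers b ≤ Subgroup.normalizer (D : Set G) := by
    rw [Subgroup.zpowers_le]
    exact mem_normalizer_commutator hbE hbQ
  have hbQ' : Subgroup.zpowers b ≤ Subgroup.normalizer (Q : Set G) := by
    rw [Subgroup.zpowers_le]; exact hbQ
  have hDQ : ⁅D, Q⁆ = D :=
    Cfsg.Agent.Lib.CoprimeCommutator.commutator_commutator_eq Q E hQE (hcop E hER)
  have hD1 : D ≠ ⊥ := by
    intro h
    apply hQ1
    rw [eq_bot_iff]
    intro g hg
    rw [Subgroup.mem_bot]
    apply hfaith g hg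
    apply hfaithE g (hQR hg)
    · have h1 : orderOf g ∣ Nat.card Q := by
        rw [← Subgroup.orderOf_mk g hg]
        exact orderOf_dvd_natCard _
      exact Nat.Coprime.coprime_dvd_left h1 hcopp
    · intro x hx
      rw [hDdef, Subgroup.commutator_eq_bot_iff_le_centralizer] at h
      exact Subgroup.mem_centralizer_iff.mp (h hx) g hg
  have hexp : ∀ d : D, d ^ p = 1 := fun d => Subtype.ext ((hE d).1 (hDE d.2)).2
  have hccD : ∀ x ∈ D, ∀ y ∈ D, ∀ z ∈ D, Commute ⁅x, y⁆ z := fun x hx y hy z hz =>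
    hcc x (hEC (hDE hx)) y (hDR hy) z (hEC (hDE hz))
  have hcl : commutator D ≤ Subgroup.center D := by
    rw [commutator_def, Subgroup.commutator_le]
    intro x _ y _
    rw [Subgroup.mem_center_iff]
    intro z
    exact Subtype.ext (hccD x x.2 y y.2 z z.2).eq.symm
  have hmapc : (commutator D).map D.subtype = ⁅D, D⁆ := by
    rw [commutator_def, Subgroup.map_commutator, ← MonoidHom.range_eq_map, Subgroup.range_subtype]
  -- `Q` centralizes `D'`
  have hDDle : ⁅D, D⁆ ≤ D := Subgroup.commutator_le_self D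
  have hDD : ⁅⁅D, D⁆, Q⁆ = ⊥ := by
    apply hX _ (hDDle.trans hDR)
    · intro x hx y hy
      rw [← hmapc] at hx hy
      obtain ⟨x, hx, rfl⟩ := hx
      obtain ⟨y, hy, rfl⟩ := hy
      exact congrArg Subtype.val (Subgroup.mem_center_iff.mp (hcl hy) x)
    · intro x hx
      exact ((hE x).1 (hDE (hDDle hx))).2
    · intro q hq
      exact mem_normalizer_commutator (hQD hq) (hQD hq)
    · exact mem_normalizer_commutator (hbD (Subgroup.mem_zpowers b)) (hbD (Subgroup.mem_zpowers b))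
  have hne : commutator D ≠ ⊥ := by
    intro h
    apply hD1
    rw [← hDQ]
    apply hX D hDR
    · intro x hx y hy
      have h1 : ⁅(⟨x, hx⟩ : D), (⟨y, hy⟩ : D)⁆ ∈ commutator D :=
        Subgroup.commutator_mem_commutator (Subgroup.mem_top _) (Subgroup.mem_top _)
      rw [h, Subgroup.mem_bot, commutatorElement_eq_one_iff_mul_comm] at h1
      exact congrArg Subtype.val h1
    · intro x hx
      exact ((hE x).1 (hDE hx)).2
    · exact hQD
    · exact hbD (Subgroup.mem_zpowers b)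
  -- apply the core
  refine core (D := D) (K := Q) (R := Subgroup.zpowers b) hp hexp hcl (by rw [Nat.card_zpowers, hb])
    (cj hQD) (cj hbD) (cj hbQ') ?_ hQ ?_ ?_ ?_ ?_ hne
  · intro r k v
    apply Subtype.ext
    rw [cj_apply, cj_apply, cj_apply, cj_apply, cj_apply]
    group
  · intro r hr k hk
    have h1 := congrArg Subtype.val hk
    rw [cj_apply] at h1
    have h2 : (r : G) * k = k * r := mul_inv_eq_iff_eq_mul.mp h1
    have h3 : Subgroup.zpowers r = ⊤ := zpowers_eq_top_of_prime_card (by rw [Nat.card_zpowers, hb]) hr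
    have h4 : (⟨b, Subgroup.mem_zpowers b⟩ : Subgroup.zpowers b) ∈ Subgroup.zpowers r := by
      rw [h3]; trivial
    obtain ⟨n, hn⟩ := Subgroup.mem_zpowers_iff.mp h4
    have h5 : b = (r : G) ^ n := by
      have := congrArg Subtype.val hn
      rw [Subgroup.coe_zpow] at this
      exact this.symm
    apply Subtype.ext
    apply hfix k k.2
    rw [h5]
    exact ((show Commute (r : G) k from h2).zpow_left n).eq
  · refine le_trans (Nat.card_le_card_of_injective
      (fun x : fixedPts (cj hbD) => (⟨x.1.1, ?_⟩ : Z)) ?_) hZ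
    · have h1 := congrArg Subtype.val (x.2 ⟨b, Subgroup.mem_zpowers b⟩)
      rw [cj_apply] at h1
      exact (hZR x.1.1 (hDR x.1.2) (mul_inv_eq_iff_eq_mul.mp h1) ((hE _).1 (hDE x.1.2)).2).1
    · intro x y h
      exact Subtype.ext (Subtype.ext (congrArg (fun z : Z => (z : G)) h))
  · intro k x hx
    apply Subtype.ext
    rw [cj_apply]
    have h1 : (x : G) ∈ ⁅D, D⁆ := by rw [← hmapc]; exact ⟨x, hx, rfl⟩
    rw [Subgroup.commutator_eq_bot_iff_le_centralizer] at hDD
    have h2 := Subgroup.mem_centralizer_iff.mp (hDD h1) k k.2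
    exact mul_inv_eq_iff_eq_mul.mpr h2
  · intro x hx
    let W := D ⧸ commutator D
    let cW : CommGroup W := { (inferInstance : Group W) with
      mul_comm := fun x y => by
        obtain ⟨x, rfl⟩ := QuotientGroup.mk_surjective x
        obtain ⟨y, rfl⟩ := QuotientGroup.mk_surjective y
        show ((x * y : D) : W) = ((y * x : D) : W)
        rw [QuotientGroup.eq]
        have : (x * y)⁻¹ * (y * x) = ⁅y⁻¹, x⁻¹⁆ := by rw [commutatorElement_def]; group
        rw [this]
        exact Subgroup.commutator_mem_commutator (Subgroup.mem_top _) (Subgroup.mem_top _) }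
    let αW : Q →* MulAut W := (quotAut (commutator D)).comp (cj hQD)
    have hαW : ∀ k (x : D), αW k (x : W) = ((cj hQD k x : D) : W) := fun k x => rfl
    have hcopW : (Nat.card Q).Coprime (Nat.card W) :=
      (hcop D hDR).coprime_dvd_right (Subgroup.card_quotient_dvd_card _)
    rw [← QuotientGroup.eq_one_iff]
    apply Cfsg.Agent.Lib.CoprimeAbelian.eq_one_of_fixed_of_mem_closure αW hcopW (x : W)
    · intro a
      rw [hαW]
      exact (QuotientGroup.eq.mpr (hx a)).symm
    · set S := Subgroup.closure {w : W | ∃ a u, w = αW a u * u⁻¹} with hS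
      have h1 : ⁅D, Q⁆ ≤ (S.comap (QuotientGroup.mk' (commutator D))).map D.subtype := by
        rw [Subgroup.commutator_le]
        intro d hd q hq
        refine ⟨⟨d, hd⟩ * cj hQD ⟨q, hq⟩ (⟨d, hd⟩ : D)⁻¹, ?_, ?_⟩
        · have h3 : ((⟨d, hd⟩ * cj hQD ⟨q, hq⟩ (⟨d, hd⟩ : D)⁻¹ : D) : W) =
              αW ⟨q, hq⟩ (((⟨d, hd⟩ : D)⁻¹ : D) : W) * ((((⟨d, hd⟩ : D)⁻¹ : D) : W))⁻¹ := by
            rw [hαW, mul_comm (((cj hQD ⟨q, hq⟩ (⟨d, hd⟩ : D)⁻¹ : D) : W)), QuotientGroup.mk_mul,
              QuotientGroup.mk_inv, inv_inv]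
          show ((⟨d, hd⟩ * cj hQD ⟨q, hq⟩ (⟨d, hd⟩ : D)⁻¹ : D) : W) ∈ S
          rw [h3]
          exact Subgroup.subset_closure ⟨_, _, rfl⟩
        · rw [Subgroup.coe_subtype, Subgroup.coe_mul, cj_apply, commutatorElement_def, Subgroup.coe_inv]
          simp [mul_assoc]
      rw [hDQ] at h1
      obtain ⟨y, hy, hyx⟩ := h1 x.2
      have : y = x := Subtype.ext hyx
      rw [← this]
      exact hy

end Cfsg.Agent.H18.OmegaAmb
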